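import Cfsg.Agent.Lib.Helper14.PG63.Defs

/-!
# PG63 package [FROB] (S3664): the Frobenius automorphism of the field with 8 elements
-/

set_option autoImplicit false

namespace Cfsg.Agent.Lib.Helper38.PG63

open Matrix Cfsg.Agent.Lib.Helper14.PG63

universe u

theorem frob_pow_apply {F : Type u} [Field F] [Fintype F] [CharP F 2] (k : ℕ) (x : F) :
    (frobAut F ^ k) x = x ^ (2 ^ k) := by
  induction k generalizing x with
  | zero => simp
  | succ k ih =>
    rw [pow_succ, RingAut.mul_apply, frobAut_apply, ih, ← pow_mul]
    congr 1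
    ring

theorem pkgFrob : PkgFrob.{u} := by
  intro F _ _ _ hF
  have h8 : ∀ x : F, x ^ 8 = x := by
    intro x
    have := FiniteField.pow_card x
    rw [hF] at this
    exact this
  have h3 : frobAut F ^ 3 = 1 := by
    ext x
    rw [frob_pow_apply]
    simpa using h8 x
  have hne : frobAut F ≠ 1 := by
    intro h
    have hx : ∀ x : F, x = 0 ∨ x = 1 := by
      intro x
      have e := congrArg (fun f : RingAut F => f x) h
      simp only [frobAut_apply, RingAut.one_apply] at e
      have e2 : x * (x - 1) = 0 := by linear_combination e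
      rcases mul_eq_zero.1 e2 with h0 | h0
      · exact Or.inl h0
      · exact Or.inr (sub_eq_zero.1 h0)
    classical
    have hc : Fintype.card F ≤ 2 := by
      have hs : (Finset.univ : Finset F) ⊆ {0, 1} := by
        intro x _
        rcases hx x with h0 | h0 <;> simp [h0]
      calc Fintype.card F = (Finset.univ : Finset F).card := rfl
        _ ≤ ({0, 1} : Finset F).card := Finset.card_le_card hs
        _ ≤ 2 := Finset.card_le_two
    omega
  have hord : orderOf (frobAut F) = 3 := by
    have hd := orderOf_dvd_of_pow_eq_one h3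
    rcases (Nat.dvd_prime Nat.prime_three).1 hd with h | h
    · exact absurd (orderOf_eq_one_iff.1 h) hne
    · exact h
  refine ⟨hord, ?_⟩
  intro τ hτ hne1 c hc
  obtain ⟨k, rfl⟩ := Subgroup.mem_zpowers_iff.1 hτ
  have hk : frobAut F ^ k = frobAut F ^ (k % 3) := by
    have e := zpow_mod_orderOf (frobAut F) k
    rw [hord] at e
    exact e.symm
  have h012 : k % 3 = 0 ∨ k % 3 = 1 ∨ k % 3 = 2 := by omega
  rcases h012 with h | h | h
  · rw [h, zpow_zero] at hk
    exact absurd hk hne1
  · rw [h, zpow_one] at hk
    rw [hk, frobAut_apply] at hc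
    have e2 : c * (c - 1) = 0 := by linear_combination hc
    rcases mul_eq_zero.1 e2 with h0 | h0
    · exact Or.inl h0
    · exact Or.inr (sub_eq_zero.1 h0)
  · have e2 : frobAut F ^ (2 : ℤ) = frobAut F ^ (2 : ℕ) := zpow_ofNat _ 2
    rw [h, e2] at hk
    rw [hk, frob_pow_apply] at hc
    norm_num at hc
    by_cases h0 : c = 0
    · exact Or.inl h0
    · right
      have h7 : c ^ 7 = 1 := by
        have e := h8 c
        have e3 : c * (c ^ 7 - 1) = 0 := by linear_combination e
        rcases mul_eq_zero.1 e3 with h1 | h1
        · exact absurd h1 h0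
        · exact sub_eq_zero.1 h1
      have e4 : c ^ 3 = 1 := by
        have e3 : c * (c ^ 3 - 1) = 0 := by linear_combination hc
        rcases mul_eq_zero.1 e3 with h1 | h1
        · exact absurd h1 h0
        · exact sub_eq_zero.1 h1
      have e5 : c ^ 7 = (c ^ 3) ^ 2 * c := by ring
      rw [e4, one_pow, one_mul] at e5
      rw [← e5, h7]

end Cfsg.Agent.Lib.Helper38.PG63
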