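import Cfsg.Agent.Lib.Helper14.PG63.Defs

/-!
# PG63 package [PI] (S3664): `Pred` is closed under inverses
-/

set_option autoImplicit false

namespace Cfsg.Agent.Lib.Helper38.PG63

open Matrix Cfsg.Agent.Lib.Helper14.PG63

universe u

theorem J4_mul_J4 {F : Type u} [Field F] : J4 F * J4 F = 1 := by
  ext i j
  fin_cases i <;> fin_cases j <;> simp [J4, Matrix.mul_apply, Fin.sum_univ_four]

theorem J4_transpose {F : Type u} [Field F] : (J4 F)ᵀ = J4 F := by
  ext i j
  fin_cases i <;> fin_cases j <;> simp [J4]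

/-- the inverse of a form-preserving matrix -/
theorem inv_eq_of_form {F : Type u} [Field F] (M M' : Matrix (Fin 4) (Fin 4) F)
    (h1 : Mᵀ * J4 F * M = J4 F) (hMM : M * M' = 1) : M' = J4 F * Mᵀ * J4 F := by
  have e : J4 F * Mᵀ * J4 F * M = 1 := by
    rw [Matrix.mul_assoc, Matrix.mul_assoc, ← Matrix.mul_assoc Mᵀ, h1, J4_mul_J4]
  calc M' = (J4 F * Mᵀ * J4 F * M) * M' := by rw [e, Matrix.one_mul]
    _ = J4 F * Mᵀ * J4 F := by rw [Matrix.mul_assoc, hMM, Matrix.mul_one]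

theorem inv_entry {F : Type u} [Field F] (M : Matrix (Fin 4) (Fin 4) F) (i j : Fin 4) :
    (J4 F * Mᵀ * J4 F) i j = M (Fin.rev j) (Fin.rev i) := by
  fin_cases i <;> fin_cases j <;>
    simp [J4, Matrix.mul_apply, Fin.sum_univ_four, Fin.rev, Matrix.vecMul, dotProduct]

theorem star4_inv {F : Type u} [Field F] (M : Matrix (Fin 4) (Fin 4) F) (p r : Fin 4) :
    Cfsg.Lie.star4 (J4 F * Mᵀ * J4 F) p r = Cfsg.Lie.star4 M (Fin.rev r) (Fin.rev p) := by
  simp only [Cfsg.Lie.star4, Matrix.of_apply, inv_entry]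
  fin_cases p <;> fin_cases r <;> simp [Cfsg.Lie.pairOf, Fin.rev] <;> ring

theorem pred_inv {F : Type u} [Field F] (M M' : Matrix (Fin 4) (Fin 4) F)
    (hM : Pred M) (hMM : M * M' = 1) : Pred M' := by
  obtain ⟨h1, h2⟩ := hM
  have hM' := inv_eq_of_form M M' h1 hMM
  constructor
  · have e : M'ᵀ * (Mᵀ * J4 F * M) * M' = M'ᵀ * J4 F * M' := by rw [h1]
    rw [← e]
    have e2 : M'ᵀ * (Mᵀ * J4 F * M) * M' = (M * M')ᵀ * J4 F * (M * M') := by
      rw [Matrix.transpose_mul]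
      simp only [Matrix.mul_assoc]
    rw [e2, hMM, Matrix.transpose_one, Matrix.one_mul, Matrix.mul_one]
  · ext p r
    rw [hM', star4_inv, h2, Matrix.map_apply, Matrix.map_apply, inv_entry]

theorem pkgPI : PkgPI.{u} := by
  intro _ F _ _ M M' hM hMM
  exact pred_inv M M' hM hMM

end Cfsg.Agent.Lib.Helper38.PG63
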