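import Cfsg.Agent.Lib.Helper14.PG63.Defs

/-!
# PG63 package [PMAP] (S3664): `Pred` is preserved by entrywise ring homomorphisms
-/

set_option autoImplicit false

namespace Cfsg.Agent.Lib.Helper38.PG63

open Matrix Cfsg.Agent.Lib.Helper14.PG63

universe u

theorem J4_map {F : Type u} [Field F] (τ : F →+* F) : (J4 F).map τ = J4 F := by
  ext i j
  fin_cases i <;> fin_cases j <;> simp [J4]

theorem pkgPMap : PkgPMap.{u} := by
  intro F _ τ M hM
  obtain ⟨h1, h2⟩ := hM
  constructor
  · have e := congrArg (fun X : Matrix (Fin 4) (Fin 4) F => X.map τ) h1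
    simp only [Matrix.map_mul, J4_map, Matrix.transpose_map] at e
    exact e
  · ext p r
    have e := congrFun (congrFun h2 p) r
    simp only [Cfsg.Lie.star4, Matrix.of_apply, Matrix.map_apply] at e ⊢
    rw [← map_mul, ← map_mul, ← map_sub, e, map_pow]

end Cfsg.Agent.Lib.Helper38.PG63
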