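import Cfsg.Agent.Lib.Helper14.PG63.Defs

/-!
# PG63 package [STR] (S3664): the elements of `L`
-/

set_option autoImplicit false

namespace Cfsg.Agent.Lib.Helper38.PG63

open Matrix Cfsg.Agent.Lib.Helper14.PG63

universe u

theorem pred_one {F : Type u} [Field F] : Pred (1 : Matrix (Fin 4) (Fin 4) F) := by
  constructor
  · rw [Matrix.transpose_one, Matrix.one_mul, Matrix.mul_one]
  · ext p r
    simp only [Cfsg.Lie.star4, Matrix.of_apply, Matrix.map_apply]
    fin_cases p <;> fin_cases r <;> simp [Cfsg.Lie.pairOf, Matrix.one_apply]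

theorem pkgStr : PkgStr.{u} := by
  intro hPM hPI hPMap F _ _ _ hF x hx
  unfold L at hx
  induction hx using Subgroup.closure_induction with
  | mem x hx =>
    rcases hx with hx | hx
    · exact ⟨hx.1, by rw [hx.2]; exact one_mem _⟩
    · rw [Set.mem_singleton_iff] at hx
      subst hx
      refine ⟨?_, ?_⟩
      · rw [SemidirectProduct.left_inr, Units.val_one]
        exact pred_one
      · rw [SemidirectProduct.right_inr]
        exact Subgroup.mem_zpowers _
  | one =>
    refine ⟨?_, ?_⟩
    · rw [SemidirectProduct.one_left, Units.val_one]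
      exact pred_one
    · rw [SemidirectProduct.one_right]
      exact one_mem _
  | mul x y _ _ ihx ihy =>
    refine ⟨?_, ?_⟩
    · rw [SemidirectProduct.mul_left, Units.val_mul, mapHom_coe]
      exact hPM _ _ ihx.1 (hPMap (RingEquiv.toRingHom x.right) _ ihy.1)
    · rw [SemidirectProduct.mul_right]
      exact mul_mem ihx.2 ihy.2
  | inv x _ ihx =>
    refine ⟨?_, ?_⟩
    · rw [SemidirectProduct.inv_left, mapHom_coe]
      have h1 : (x.left : Matrix (Fin 4) (Fin 4) F) *
          ((x.left⁻¹ : GL (Fin 4) F) : Matrix (Fin 4) (Fin 4) F) = 1 := by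
        rw [← Units.val_mul, mul_inv_cancel, Units.val_one]
      exact hPMap (RingEquiv.toRingHom x.right⁻¹) _ (hPI _ _ ihx.1 h1)
    · rw [SemidirectProduct.inv_right]
      exact inv_mem ihx.2

end Cfsg.Agent.Lib.Helper38.PG63
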